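import Mathlib

/-! A cyclotomic lemma: subsets of `ZMod p` whose character sums have a rational `p`-th power. -/

set_option autoImplicit false

namespace CfsgLib.Atk

open Finset

variable {p : ℕ} [Fact p.Prime] {ψ : AddChar (ZMod p) ℂ}

theorem psi_eq_pow (ψ : AddChar (ZMod p) ℂ) (t : ZMod p) : ψ t = ψ 1 ^ t.val := by
  rw [← AddChar.map_nsmul_eq_pow, nsmul_one, ZMod.natCast_zmod_val]

theorem psi_root (h : ψ 1 ≠ 1) : IsPrimitiveRoot (ψ 1) p := by
  have : orderOf (ψ 1) = p := orderOf_eq_prime (by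
    rw [← AddChar.map_nsmul_eq_pow, nsmul_one, ZMod.natCast_self, AddChar.map_zero_eq_one]) h
  have e := IsPrimitiveRoot.orderOf (ψ 1)
  rwa [this] at e

theorem const_of_sum (h : ψ 1 ≠ 1) (f : ZMod p → ℤ) (e : ∑ t, (f t : ℂ) * ψ t = 0) :
    ∀ s t, f s = f t := by
  have hp : p.Prime := Fact.out
  have : NeZero p := ⟨hp.pos.ne'⟩
  have := ((psi_root h).sum_eq_zero_iff_forall_eq_int hp fun i => f ((i : ℕ) : ZMod p)).1 (by
    rw [← e]
    refine Fintype.sum_equiv (ZMod.finEquiv p).toEquiv _ _ fun i => ?_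
    have e1 : (ZMod.finEquiv p).toEquiv i = ((i : ℕ) : ZMod p) := by
      obtain ⟨q, rfl⟩ : ∃ q, p = q + 1 := ⟨p - 1, by have := hp.pos; omega⟩
      exact (Fin.cast_val_eq_self i).symm
    rw [e1, psi_eq_pow ψ (i : ℕ), ZMod.val_cast_of_lt i.2])
  intro s t
  simpa using this ⟨s.val, ZMod.val_lt s⟩ ⟨t.val, ZMod.val_lt t⟩

theorem cyc (h : ψ 1 ≠ 1) (D : Finset (ZMod p)) {ε : ZMod p} (h0 : ε ≠ 0) (h1 : ε ≠ 1)
    (hD : ∀ d ∈ D, ε * d ∈ D) {x : ℂ} (hx : ∀ s : ZMod p, s ≠ 0 → (∑ d ∈ D, ψ (s * d)) ^ p = x) :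
    (∀ d ∈ D, d = 0) ∨ ∀ t, t ≠ 0 → t ∈ D := by
  classical
  have hp : p.Prime := Fact.out
  have : NeZero p := ⟨hp.pos.ne'⟩
  have hD' : ∀ d, ε * d ∈ D ↔ d ∈ D := fun d => ⟨fun e => by
    have : D.image (ε * ·) = D := eq_of_subset_of_card_le (image_subset_iff.2 hD)
      (card_image_of_injective _ (mul_right_injective₀ h0)).ge
    obtain ⟨d', e1, e2⟩ := mem_image.1 (this ▸ e)
    exact mul_left_cancel₀ h0 e2 ▸ e1, hD d⟩
  have ind : ∀ E : Finset (ZMod p), ∑ t, (((if t ∈ E then 1 else 0 : ℤ) : ℂ)) * ψ t =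
      ∑ d ∈ E, ψ d := fun E => by
    simp [ite_mul, sum_ite_mem]
  have shift : ∀ m : ZMod p, m ≠ 0 → (∀ u ∈ D, u + m ∈ D) → ∀ d ∈ D, ∀ t, t ∈ D := by
    intro m hm e d hd t
    have : ∀ n : ℕ, d + n * m ∈ D := fun n => by
      induction n with
      | zero => simpa using hd
      | succ n ih => simpa [add_mul, add_assoc] using e _ ih
    simpa [hm] using this ((t - d) / m).val
  by_contra hcon
  push Not at hcon
  obtain ⟨⟨d, hd, hd0⟩, t, ht0, ht⟩ := hcon
  have hδ : ∑ d ∈ D, ψ d ≠ 0 := fun e => by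
    have := const_of_sum h (fun t => if t ∈ D then 1 else 0) ((ind D).trans e) d t
    simp [hd, ht] at this
  have hs : t / d ≠ 0 := div_ne_zero ht0 hd0
  generalize hs' : t / d = s at hs
  obtain ⟨j, -, hj⟩ := (psi_root h).eq_pow_of_pow_eq_one
    (ξ := (∑ d ∈ D, ψ (s * d)) / ∑ d ∈ D, ψ d) (by
      have e1 := hx 1 one_ne_zero
      simp only [one_mul] at e1
      rw [div_pow, hx s hs, ← e1, div_self (pow_ne_zero _ hδ)])
  have e1 : ∑ d ∈ D.image (s * ·), ψ d = ∑ d ∈ D.image (· + (j : ZMod p)), ψ d := by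
    rw [sum_image fun _ _ _ _ e => mul_left_cancel₀ hs e, sum_image fun _ _ _ _ e => add_right_cancel e,
      ← div_mul_cancel₀ (∑ d ∈ D, ψ (s * d)) hδ, ← hj, mul_sum]
    refine sum_congr rfl fun d _ => ?_
    rw [AddChar.map_add_eq_mul, mul_comm, ← AddChar.map_nsmul_eq_pow, nsmul_one]
  have e2 := const_of_sum h (fun t => (if t ∈ D.image (s * ·) then 1 else 0) -
    if t ∈ D.image (· + (j : ZMod p)) then 1 else 0) (by
      simp only [Int.cast_sub, sub_mul, sum_sub_distrib, ind, e1, sub_self])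
  have e3 : D.image (s * ·) = D.image (· + (j : ZMod p)) := by
    refine eq_of_subset_of_card_le (fun u hu => ?_) (by
      rw [card_image_of_injective _ (mul_right_injective₀ hs),
        card_image_of_injective _ (add_left_injective _)])
    by_contra e
    have := e2 u (d + j)
    rw [if_pos hu, if_neg e, if_pos (mem_image_of_mem _ hd)] at this
    split_ifs at this <;> omega
  have e4 : ∀ u, u ∈ D ↔ s * u - j ∈ D := fun u => ⟨fun e => by
    obtain ⟨v, hv, e5⟩ := mem_image.1 (e3 ▸ mem_image_of_mem _ e)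
    rwa [← e5, add_sub_cancel_right], fun e => by
    obtain ⟨v, hv, e5⟩ := mem_image.1 (e3.symm ▸ mem_image_of_mem (· + (j : ZMod p)) e)
    rwa [← mul_left_cancel₀ hs (e5.trans (sub_add_cancel _ _))]⟩
  by_cases hj0 : (j : ZMod p) = 0
  · have := (e4 d).1 hd
    rw [hj0, sub_zero, ← hs', div_mul_cancel₀ _ hd0] at this
    exact ht this
  · refine ht (shift ((ε - 1) * j) (mul_ne_zero (sub_ne_zero.2 h1) hj0) (fun u hu => ?_) d hd t)
    have e5 : ε⁻¹ * u ∈ D := (hD' _).1 (by rwa [mul_inv_cancel_left₀ h0])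
    have e6 : s⁻¹ * (ε⁻¹ * u + j) ∈ D := (e4 _).2 (by
      rwa [mul_inv_cancel_left₀ hs, add_sub_cancel_right])
    have e7 := (e4 _).1 (hD _ e6)
    convert e7 using 1
    field_simp
    ring

end CfsgLib.Atk
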